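import Cfsg.Agent.Perm2.SimpleCent
import Cfsg.Agent.Perm2.Extreme

/-! Extremely primitive groups: the socle analysis. -/

set_option autoImplicit false

namespace Cfsg.Agent.Perm2

open MulAction Subgroup

variable {G Ω : Type*} [Group G] [MulAction G Ω]

/-- Two-point stabilizers are maximal in the point stabilizer of an extremely primitive group. -/
theorem extreme_stab_le {α : Ω}
    (hep : ∀ γ : Ω, IsPreprimitive (stabilizer G α) (orbit (stabilizer G α) γ)) {β : Ω}
    {Y : Subgroup G} (hY : ∀ g : G, g • α = α → g • β = β → g ∈ Y) {g : G} (hg : g ∈ Y)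
    (hgα : g • α = α) (hgβ : g • β ≠ β) : stabilizer G α ≤ Y := by
  have h := eq_top_of_stab_le (hep β) (a := ⟨β, mem_orbit_self β⟩) (Y := Y.subgroupOf (stabilizer G α))
    (fun x hx => hY x x.2 (congrArg Subtype.val (mem_stabilizer_iff.mp hx))) (g := ⟨g, hgα⟩) hg
    (fun h => hgβ (congrArg Subtype.val h))
  exact subgroupOf_eq_top.mp h

theorem extreme_transitive [Finite G] [FaithfulSMul G Ω] (hprim : IsPreprimitive G Ω) {α : Ω}
    (hep : ∀ γ : Ω, IsPreprimitive (stabilizer G α) (orbit (stabilizer G α) γ))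
    {M : Subgroup G} (hM : M ≠ ⊥) (hMle : M ≤ stabilizer G α)
    (hMn : stabilizer G α ≤ normalizer (M : Set G)) {A : Subgroup G}
    (hMA : M ≤ normalizer (A : Set G)) (hA : ¬ A ≤ stabilizer G α) (b : Ω) : ∃ a ∈ A, a • α = b := by
  let Y : Subgroup G :=
    { carrier := {g | ∀ ω : Ω, (∃ a ∈ A, a • α = ω) ↔ ∃ a ∈ A, a • α = g • ω}
      one_mem' := fun ω => by rw [one_smul]
      mul_mem' := fun {x y} hx hy ω => by rw [mul_smul, ← hx, ← hy]
      inv_mem' := fun {x} hx ω => by rw [hx (x⁻¹ • ω), smul_inv_smul] }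
  have key : ∀ h : G, h • α = α → ∀ ω : Ω, (∃ a ∈ A, a • α = ω) → ∃ a ∈ A, a • α = h • ω := by
    rintro h hh _ ⟨a, ha, rfl⟩
    obtain ⟨m, hm, hm'⟩ := extreme_exists_smul_eq hprim hep hM hMle hMn (ω := a • α) hh
    refine ⟨m * a * m⁻¹, (mem_normalizer_iff.mp (hMA hm) a).mp ha, ?_⟩
    rw [← hm', mul_smul, mul_smul, mem_stabilizer_iff.mp (inv_mem (hMle hm))]
  have h1 : stabilizer G α ≤ Y := fun h hh ω => ⟨key h hh ω, fun h' => by
    have := key h⁻¹ (inv_mem hh) _ h'
    rwa [inv_smul_smul] at this⟩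
  obtain ⟨a, ha, haα⟩ := SetLike.not_le_iff_exists.mp hA
  have h2 : a ∈ Y := fun ω => ⟨by
      rintro ⟨a', ha', rfl⟩
      exact ⟨a * a', mul_mem ha ha', mul_smul _ _ _⟩, by
      rintro ⟨a', ha', h⟩
      exact ⟨a⁻¹ * a', mul_mem (inv_mem ha) ha', by rw [mul_smul, h, inv_smul_smul]⟩⟩
  have h3 := eq_top_of_stab_le hprim h1 h2 haα
  obtain ⟨g, rfl⟩ := exists_smul_eq G α b
  exact ((h3 ▸ mem_top g : g ∈ Y) α).mp ⟨1, one_mem _, one_smul _ _⟩

theorem mem_sup_of_commute {A B : Subgroup G} (hcomm : ∀ x ∈ A, ∀ y ∈ B, x * y = y * x) {w : G}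
    (hw : w ∈ A ⊔ B) : ∃ a ∈ A, ∃ b ∈ B, w = a * b := by
  have h1 : A ≤ normalizer (B : Set G) := fun a ha =>
    centralizer_le_normalizer _ (mem_centralizer_iff.mpr fun b hb => (hcomm a ha b hb).symm)
  have h2 : w ∈ ((A ⊔ B : Subgroup G) : Set G) := hw
  rw [coe_mul_of_left_le_normalizer_right A B h1] at h2
  obtain ⟨a, ha, b, hb, rfl⟩ := h2
  exact ⟨a, ha, b, hb, rfl⟩

/-- The diagonal case with two factors does not occur. -/
theorem extreme_not_two_commuting [Finite G] [FaithfulSMul G Ω] (hprim : IsPreprimitive G Ω) {α : Ω}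
    (hep : ∀ γ : Ω, IsPreprimitive (stabilizer G α) (orbit (stabilizer G α) γ))
    {A B : Subgroup G} (hA : SimpleNA A) (hAt : ∀ b : Ω, ∃ n ∈ A, n • α = b)
    (hBt : ∀ b : Ω, ∃ n ∈ B, n • α = b) (hcomm : ∀ x ∈ A, ∀ y ∈ B, x * y = y * x)
    (hW : stabilizer G α ≤ normalizer ((A ⊔ B : Subgroup G) : Set G))
    (hb : ∀ h ∈ stabilizer G α, ∀ a ∈ A, h * a * h⁻¹ ∈ A ∨ h * a * h⁻¹ ∈ B) : False := by
  obtain ⟨f, hf, hfB, hfα⟩ := exists_hom_of_commute_transitive hAt hBt hcomm
  have hfB' : ∀ x : A, f x ∈ B := fun x => hfB ▸ MonoidHom.mem_range.mpr ⟨x, rfl⟩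
  have hregA : ∀ x ∈ A, x • α = α → x = 1 := fun x hx h =>
    eq_one_of_commute_transitive hBt h fun n hn => (hcomm x hx n hn).symm
  have hregB : ∀ x ∈ B, x • α = α → x = 1 := fun x hx h =>
    eq_one_of_commute_transitive hAt h fun n hn => hcomm n hn x hx
  have hinjA : ∀ x ∈ A, ∀ y ∈ A, x • α = y • α → x = y := fun x hx y hy h => by
    have := hregA (y⁻¹ * x) (mul_mem (inv_mem hy) hx) (by rw [mul_smul, h, inv_smul_smul])
    exact (inv_mul_eq_one.mp this).symm
  let r : A →* G :=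
    { toFun := fun x => x * f x
      map_one' := by simp
      map_mul' := fun x y => by
        rw [map_mul, coe_mul]
        calc (x : G) * y * (f x * f y) = x * (y * f x) * f y := by group
          _ = x * (f x * y) * f y := by rw [hcomm y y.2 _ (hfB' x)]
          _ = _ := by group }
  have hr : ∀ x y : A, r x • (y : G) • α = ((x * y * x⁻¹ : A) : G) • α := by
    intro x y
    change ((x : G) * f x) • (y : G) • α = ((x : G) * y * (x : G)⁻¹) • α
    rw [mul_smul, ← mul_smul (f x), ← hcomm y y.2 _ (hfB' x), mul_smul, hfα, mul_smul, mul_smul]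
  have hrα : ∀ x : A, r x • α = α := fun x => by simpa using hr x 1
  have hrfix : ∀ x y : A, r x • (y : G) • α = (y : G) • α ↔ x * y = y * x := by
    intro x y
    rw [hr]
    constructor
    · intro h
      have := Subtype.ext (hinjA _ (x * y * x⁻¹).2 _ y.2 h)
      rwa [mul_inv_eq_iff_eq_mul] at this
    · intro h
      rw [h, mul_inv_cancel_right]
  have hrinj : Function.Injective r := by
    rw [injective_iff_map_eq_one]
    intro x hx
    apply Subtype.ext
    apply hA.eq_one_of_commute x.2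
    intro y hy
    have := (hrfix x ⟨y, hy⟩).mp (by rw [hx, one_smul])
    exact (congrArg Subtype.val this).symm
  have hH : stabilizer G α ≠ ⊥ := by
    intro h
    have : Nontrivial A := hA.1.toNontrivial
    obtain ⟨x, hx⟩ := exists_ne (1 : A)
    have h1 : r x ∈ stabilizer G α := hrα x
    rw [h, mem_bot] at h1
    exact hx (hrinj (by rw [h1, map_one]))
  have hpow : ∀ h : G, h • α = α → ∀ x : A, h • (x : G) • α = (x : G) • α →
      ∀ m : ℕ, h • ((x ^ m : A) : G) • α = ((x ^ m : A) : G) • α := by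
    intro h hh x hx m
    have h1 : (h * x * h⁻¹) • α = (x : G) • α := by
      rw [mul_smul, mul_smul, mem_stabilizer_iff.mp (inv_mem hh), hx]
    have h2 : Commute (h * x * h⁻¹) x := by
      rcases hb h hh x x.2 with h3 | h3
      · rw [hinjA _ h3 _ x.2 h1]
      · exact (hcomm x x.2 _ h3).symm
    have h3 : ∀ m : ℕ, (h * x * h⁻¹) ^ m • α = (x : G) ^ m • α := by
      intro m
      induction m with
      | zero => simp
      | succ m ih =>
        rw [pow_succ, mul_smul, h1, ← mul_smul, (h2.pow_left m).eq, mul_smul, ih, ← mul_smul, ← pow_succ']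
    have h4 := h3 m
    rw [conj_pow, mul_smul, mul_smul, mem_stabilizer_iff.mp (inv_mem hh)] at h4
    simpa using h4
  have := hA.1
  apply false_of_simple_centralizers (T := A) hA.2
  · intro x m hm y hy
    rw [mem_centralizer_singleton_iff] at hy ⊢
    by_contra hcon
    have h1 := extreme_stab_le hep (β := (x : G) • α) (Y := stabilizer G (((x ^ m : A) : G) • α))
      (fun g hg hg' => hpow g hg x hg' m) (g := r y) ((hrfix _ _).mpr hy) (hrα y)
      (fun h => hcon ((hrfix _ _).mp h))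
    obtain ⟨g, hg, hg'⟩ := exists_stab_smul_ne hprim (a := α) (b := ((x ^ m : A) : G) • α)
      (fun h => hm (Subtype.ext (hregA _ (x ^ m).2 h.symm))) hH
    exact hg' (h1 hg)
  · intro x hx y hy
    by_contra hcon
    rw [mem_centralizer_singleton_iff] at hcon
    have hE : (centralizer ({x} : Set A)).map r = (A ⊔ B) ⊓ stabilizer G α ⊓ stabilizer G ((x : G) • α) := by
      apply le_antisymm
      · rintro _ ⟨c, hc, rfl⟩
        exact mem_inf.mpr ⟨mem_inf.mpr ⟨mul_mem (mem_sup_left c.2) (mem_sup_right (hfB' c)), hrα c⟩,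
          (hrfix _ _).mpr (mem_centralizer_singleton_iff.mp hc)⟩
      · intro w hw
        obtain ⟨hw1, hw3⟩ := mem_inf.mp hw
        obtain ⟨hw1, hw2⟩ := mem_inf.mp hw1
        obtain ⟨a, ha, b, hb, rfl⟩ := mem_sup_of_commute hcomm hw1
        have h1 : a * b = r ⟨a, ha⟩ := by
          change a * b = a * f ⟨a, ha⟩
          congr 1
          have h2 : ((f ⟨a, ha⟩)⁻¹ * b) • α = α := by
            rw [mul_smul, inv_smul_eq_iff, hfα, eq_inv_smul_iff, ← mul_smul]
            exact hw2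
          exact (inv_mul_eq_one.mp (hregB _ (mul_mem (inv_mem (hfB' _)) hb) h2)).symm
        rw [h1] at hw3 ⊢
        exact ⟨_, mem_centralizer_singleton_iff.mpr ((hrfix _ _).mp hw3), rfl⟩
    have h1 := extreme_stab_le hep (β := (x : G) • α)
      (Y := normalizer (((centralizer ({x} : Set A)).map r : Subgroup G) : Set G))
      (fun g hg hg' => by
        rw [hE]
        exact inf_normalizer_le_normalizer_inf (mem_inf.mpr ⟨inf_normalizer_le_normalizer_inf
          (mem_inf.mpr ⟨hW hg, le_normalizer hg⟩), le_normalizer hg'⟩))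
      (g := r y) (le_normalizer_map r ⟨y, hy, rfl⟩) (hrα y) (fun h => hcon ((hrfix _ _).mp h))
    have h2 : (centralizer ({x} : Set A)).Normal := ⟨fun c hc z => by
      have h3 := (mem_normalizer_iff.mp (h1 (hrα z)) (r c)).mp ⟨c, hc, rfl⟩
      rw [← map_inv, ← map_mul, ← map_mul] at h3
      obtain ⟨c', hc', h4⟩ := h3
      rwa [← hrinj h4]⟩
    rcases h2.eq_bot_or_eq_top with h3 | h3
    · exact hx (mem_bot.mp (h3 ▸ mem_centralizer_singleton_iff.mpr rfl))
    · exact hcon (mem_centralizer_singleton_iff.mp (h3 ▸ mem_top y))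

end Cfsg.Agent.Perm2
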