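import Cfsg.Agent.Perm2.TWPerm

/-! Two-point stabilizers whose subconstituent has trivial Fitting subgroup. -/

set_option autoImplicit false

namespace Cfsg.Agent.Perm2

open MulAction Subgroup

variable {G Ω : Type*} [Group G] [MulAction G Ω]

theorem Ker2_eq_bot_of_Op_eq_bot [Finite G] [FaithfulSMul G Ω] (hprim : IsPreprimitive G Ω) {a b : Ω}
    (hab : stabilizer G a ≠ stabilizer G b)
    (h : ∀ p : ℕ, p.Prime → Op p (stabilizer G a ⊓ stabilizer G b) = ⊥) :
    Ker2 G a b = ⊥ ∨ Ker2 G b a = ⊥ := by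
  obtain ⟨p, hp, h1 | h1⟩ := thompson_wielandt hprim hab
  · left
    rw [eq_bot_iff, ← h p hp]
    exact le_Op ((Ker2_normalIn a b).of_le (le_inf (Ker2_normalIn a b).1
      ((Ker2_le a b).trans (Ker_le_right a b))) inf_le_left) h1
  · right
    rw [eq_bot_iff, ← h p hp]
    exact le_Op ((Ker2_normalIn b a).of_le (le_inf ((Ker2_le b a).trans (Ker_le_right b a))
      (Ker2_normalIn b a).1) inf_le_right) h1

theorem fittingSubgroup_eq_bot_of_Op {D : Subgroup G} [Finite G]
    (h : ∀ p : ℕ, p.Prime → Op p D = ⊥) : fittingSubgroup D = ⊥ := by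
  rw [fittingSubgroup, sSup_eq_bot]
  rintro X ⟨hX1, hX2⟩
  have h3 := isPGroup_of_nilpotent (normalIn_map_subtype X)
    (Group.nilpotent_of_mulEquiv (X.equivMapOfInjective _ D.subtype_injective)) 2
    (fun q hq _ => h q hq)
  have h4 := le_Op (normalIn_map_subtype X) h3
  rwa [h 2 Nat.prime_two, le_bot_iff, map_eq_bot_iff_of_injective _ D.subtype_injective] at h4

end Cfsg.Agent.Perm2
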