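import Cfsg.Agent.Perm2.Knapp0

/-! Homomorphisms whose image contains the alternating group. -/

set_option autoImplicit false

namespace Cfsg.Agent.Perm2.Knapp

open MulAction Subgroup Equiv

variable {G : Type*} [Group G]

theorem alt_le {n : ℕ} (hn : 5 ≤ n) {Y R : Subgroup (Perm (Fin n))} (hR : alternatingGroup (Fin n) ≤ R)
    (h : NormalIn Y R) (hY : Y ≠ ⊥) : alternatingGroup (Fin n) ≤ Y := by
  have h5 : 5 ≤ Nat.card (Fin n) := by simpa using hn
  by_cases h1 : Y ≤ alternatingGroup (Fin n)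
  · have := alternatingGroup.isSimpleGroup h5
    rcases (h.of_le h1 hR).normal_subgroupOf.eq_bot_or_eq_top with e | e
    · exact absurd (disjoint_self.mp ((subgroupOf_eq_bot.mp e).mono_right h1)) hY
    · exact subgroupOf_eq_top.mp e
  · have : Nontrivial (Fin n) := Fin.nontrivial_iff_two_le.mpr (by omega)
    have h2 : R = ⊤ := by
      obtain ⟨y, hy, hy'⟩ := SetLike.not_le_iff_exists.mp h1
      refine eq_top_iff.mpr fun σ _ => (em (σ ∈ alternatingGroup (Fin n))).elim (fun e => hR e) fun e => ?_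
      exact (mul_mem_cancel_left (h.1 hy)).mp (hR ((mul_mem_iff_of_index_two
        alternatingGroup.index_eq_two).mpr (iff_of_false hy' e)))
    have : Y.Normal := normalIn_top_iff.mp (h2 ▸ h)
    exact Perm.alternatingGroup_le_of_normal h5 ((nontrivial_iff_ne_bot Y).mpr hY)

theorem exists_noncomm {n : ℕ} (hn : 5 ≤ n) :
    ∃ σ ∈ alternatingGroup (Fin n), ∃ τ ∈ alternatingGroup (Fin n), σ * τ ≠ τ * σ := by
  have h5 : 5 ≤ Nat.card (Fin n) := by simpa using hn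
  have := alternatingGroup.isSimpleGroup h5
  obtain ⟨σ, hσ⟩ := exists_ne (1 : alternatingGroup (Fin n))
  by_contra h
  push Not at h
  exact hσ ((alternatingGroup.center_eq_bot (by omega)).le
    (mem_center_iff.mpr fun τ => Subtype.ext (h _ τ.2 _ σ.2)))

theorem eq_one_of_comm {n : ℕ} (hn : 5 ≤ n) {σ : Perm (Fin n)}
    (h : ∀ τ ∈ alternatingGroup (Fin n), τ * σ = σ * τ) : σ = 1 := by
  by_contra h1
  obtain ⟨a, ha, b, hb, hab⟩ := exists_noncomm hn
  have h2 := alt_le hn (Y := centralizer (alternatingGroup (Fin n) : Set (Perm (Fin n)))) (R := ⊤) le_top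
    (normalIn_top_iff.mpr inferInstance) fun e => h1 (e.le h)
  exact hab (h2 hb a ha)

theorem card_alt {n : ℕ} (hn : 5 ≤ n) : 2 * Nat.card (alternatingGroup (Fin n)) = n.factorial := by
  have : Nontrivial (Fin n) := Fin.nontrivial_iff_two_le.mpr (by omega)
  rw [two_mul_nat_card_alternatingGroup, Nat.card_perm, Nat.card_fin]

/-- The image of `X ⊓ H` under a homomorphism defined on `H`. -/
def im {H : Subgroup G} {P : Type*} [Group P] (φ : H →* P) (X : Subgroup G) : Subgroup P :=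
  (X.subgroupOf H).map φ

section

variable {H : Subgroup G} {P : Type*} [Group P] {φ : H →* P} {X Y : Subgroup G}

theorem mem_im {σ : P} : σ ∈ im φ X ↔ ∃ x : H, (x : G) ∈ X ∧ φ x = σ := Iff.rfl

theorem im_mono (h : X ≤ Y) : im φ X ≤ im φ Y := map_mono (comap_mono h)

theorem im_self : im φ H = φ.range := by rw [im, subgroupOf_self, MonoidHom.range_eq_map]

theorem im_normalIn (h : NormalIn Y X) : NormalIn (im φ Y) (im φ X) := ⟨im_mono h.1, le_normalizer_iff.mpr (by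
  rintro _ ⟨x, hx, rfl⟩ _ ⟨y, hy, rfl⟩
  exact ⟨x * y * x⁻¹, h.conj_mem hx hy, by simp⟩)⟩

theorem card_im_le [Finite G] (hX : X ≤ H) (h : im φ Y = ⊥) : Nat.card (im φ X) ≤ Y.relIndex X := by
  rw [im, ← relIndex_ker, ← relIndex_subgroupOf hX]
  exact relIndex_le_of_le_left ((Subgroup.map_eq_bot_iff _).mp h) index_ne_zero_of_finite

end

variable {H : Subgroup G} {n : ℕ} {φ : H →* Perm (Fin n)} {X Y Z : Subgroup G}

theorem im_alt (hn : 5 ≤ n) (hX : alternatingGroup (Fin n) ≤ im φ X) (h : NormalIn Y X) (hY : im φ Y ≠ ⊥) :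
    alternatingGroup (Fin n) ≤ im φ Y := alt_le hn hX (im_normalIn h) hY

theorem im_alt_of_index [Finite G] (hn : 5 ≤ n) (hXH : X ≤ H) (hX : alternatingGroup (Fin n) ≤ im φ X)
    (h : NormalIn Y X) (hY : Y.relIndex X ∣ (n - 1).factorial) : alternatingGroup (Fin n) ≤ im φ Y := by
  refine im_alt hn hX h fun e => ?_
  have h1 := ((card_le_of_le hX).trans (card_im_le hXH e)).trans (Nat.le_of_dvd (Nat.factorial_pos _) hY)
  have h2 := card_alt hn
  rw [← Nat.mul_factorial_pred (n := n) (by omega)] at h2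
  have h3 := Nat.factorial_pos (n - 1)
  nlinarith

theorem im_alt_inf (hn : 5 ≤ n) (hY : NormalIn Y X) (hZ : NormalIn Z X) (h1 : alternatingGroup (Fin n) ≤ im φ Y)
    (h2 : alternatingGroup (Fin n) ≤ im φ Z) : alternatingGroup (Fin n) ≤ im φ (Y ⊓ Z) := by
  refine im_alt hn (h1.trans (im_mono hY.1)) (hY.inf hZ) fun e => ?_
  obtain ⟨σ, hσ, τ, hτ, hne⟩ := exists_noncomm hn
  obtain ⟨y, hy, rfl⟩ := h1 hσ
  obtain ⟨z, hz, rfl⟩ := h2 hτ
  have h3 : φ (y * z * y⁻¹ * z⁻¹) = 1 := e.le ⟨_, commutator_mem_inf hY hZ hy hz, rfl⟩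
  rw [map_mul, map_mul, map_mul, map_inv, map_inv, mul_inv_eq_one, mul_inv_eq_iff_eq_mul] at h3
  exact hne h3

theorem im_alt_iInf {ι : Type*} [Finite ι] (hn : 5 ≤ n) (hX : alternatingGroup (Fin n) ≤ im φ X)
    (N : ι → Subgroup G) (h1 : ∀ i, NormalIn (X ⊓ N i) X) (h2 : ∀ i, alternatingGroup (Fin n) ≤ im φ (X ⊓ N i)) :
    alternatingGroup (Fin n) ≤ im φ (X ⊓ ⨅ i, N i) := by
  classical
  have := Fintype.ofFinite ι
  have key : ∀ s : Finset ι, NormalIn (X ⊓ ⨅ i ∈ s, N i) X ∧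
      alternatingGroup (Fin n) ≤ im φ (X ⊓ ⨅ i ∈ s, N i) := by
    intro s
    induction s using Finset.induction_on with
    | empty => simpa using ⟨NormalIn.refl X, hX⟩
    | insert i s _ ih =>
      rw [Finset.iInf_insert, inf_inf_distrib_left]
      exact ⟨(h1 i).inf ih.1, im_alt_inf hn (h1 i) ih.1 (h2 i) ih.2⟩
  simpa using (key Finset.univ).2

theorem ne_bot_of_im (hn : 5 ≤ n) (h : alternatingGroup (Fin n) ≤ im φ X) : X ≠ ⊥ := by
  rintro rfl
  obtain ⟨σ, hσ, τ, -, hne⟩ := exists_noncomm hn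
  obtain ⟨y, hy, rfl⟩ := h hσ
  rw [show y = 1 from Subtype.ext hy] at hne
  simp at hne

theorem exists_restr {m : ℕ} (φ : H →* Perm (Fin (m + 1))) (i : Fin (m + 1)) {D : Subgroup G} (hD : D ≤ H)
    (h : ∀ x : H, φ x i = i ↔ (x : G) ∈ D) : ∃ ρ : D →* Perm (Fin m),
      (∀ x : D, (ρ x = 1 ↔ φ ⟨x, hD x.2⟩ = 1) ∧ Perm.sign (ρ x) = Perm.sign (φ ⟨x, hD x.2⟩)) ∧
      (alternatingGroup _ ≤ φ.range → alternatingGroup _ ≤ ρ.range) := by
  let ι := Perm.extendDomainHom (finSuccAboveEquiv i)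
  have hι : Function.Injective ι := Perm.extendDomainHom_injective _
  have h1 : ∀ σ : Perm (Fin (m + 1)), σ i = i → σ ∈ ι.range := fun σ hσ => by
    have h1 : ∀ x, σ x ≠ i ↔ x ≠ i := fun x => by rw [← hσ, σ.injective.ne_iff, hσ]
    refine ⟨(finSuccAboveEquiv i).symm.permCongr (σ.subtypePerm h1), Equiv.ext fun x => ?_⟩
    by_cases hx : x = i
    · rw [hx, hσ]
      exact Perm.extendDomain_apply_not_subtype (p := fun x => x ≠ i) _ _ fun h => h rfl
    · exact (Perm.extendDomain_apply_subtype (p := fun x => x ≠ i) _ _ hx).trans (by simp)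
  let ρ := (MonoidHom.ofInjective hι).symm.toMonoidHom.comp ((φ.comp (inclusion hD)).codRestrict ι.range
    fun x => h1 _ ((h _).mpr x.2))
  have h2 : ∀ x : D, ι (ρ x) = φ ⟨x, hD x.2⟩ := fun x => MonoidHom.apply_ofInjective_symm hι _
  refine ⟨ρ, fun x => ⟨by rw [← h2, map_eq_one_iff ι hι], by rw [← h2]; exact (Perm.sign_extendDomain _ _).symm⟩,
    fun hA τ hτ => ?_⟩
  obtain ⟨x, hx⟩ := hA (show ι τ ∈ alternatingGroup _ from (Perm.sign_extendDomain _ _).trans hτ)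
  exact ⟨⟨x, (h x).mp (hx ▸ Perm.extendDomain_apply_not_subtype (p := fun x => x ≠ i) _ _ fun h => h rfl)⟩, hι ((h2 _).trans hx)⟩

theorem classify {A : Type*} [Group A] {m : ℕ} (hn : 5 ≤ n) (φ : A →* Perm (Fin n)) (θ : A →* Perm (Fin m))
    (h1 : ∀ x, φ x = 1 → θ x = 1 → x = 1) (h2 : ∀ σ ∈ alternatingGroup (Fin n), ∃ x, φ x = σ ∧ θ x = 1)
    (h3 : ∀ τ ∈ alternatingGroup (Fin m), ∃ x, φ x = 1 ∧ θ x = τ)
    (h4 : (∀ x, Perm.sign (φ x) = 1) → ∀ x, Perm.sign (θ x) = 1) :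
    (φ.range.index = 2 ∧ Nonempty (A ≃* alternatingGroup (Fin n) × alternatingGroup (Fin m))) ∨
    (φ.range = ⊤ ∧ (Nonempty (A ≃* Perm (Fin n) × Perm (Fin m)) ∨
      Nonempty (A ≃* Perm (Fin n) × alternatingGroup (Fin m)) ∨
      Nonempty (A ≃* ((Perm.sign.comp (MonoidHom.fst (Perm (Fin n)) (Perm (Fin m)))) *
        (Perm.sign.comp (MonoidHom.snd (Perm (Fin n)) (Perm (Fin m))))).ker))) := by
  have : Nontrivial (Fin n) := Fin.nontrivial_iff_two_le.mpr (by omega)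
  have hF : Function.Injective (φ.prod θ) := (injective_iff_map_eq_one _).mpr fun x hx =>
    h1 x (congrArg Prod.fst hx) (congrArg Prod.snd hx)
  have key : ∀ (σ : Perm (Fin n)) (τ : Perm (Fin m)) (x : A), Perm.sign (φ x) = Perm.sign σ →
      Perm.sign (θ x) = Perm.sign τ → (σ, τ) ∈ (φ.prod θ).range := by
    intro σ τ x e1 e2
    obtain ⟨y, y1, y2⟩ := h2 (σ * (φ x)⁻¹) (by simp [Perm.mem_alternatingGroup, e1])
    obtain ⟨z, z1, z2⟩ := h3 (τ * (θ x)⁻¹) (by simp [Perm.mem_alternatingGroup, e2])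
    exact ⟨y * z * x, by simp [y1, y2, z1, z2]⟩
  have e0 := MonoidHom.ofInjective hF
  have hu : ∀ u : ℤˣ, u = 1 ∨ u = -1 := Int.units_eq_one_or
  by_cases c1 : ∀ x, Perm.sign (φ x) = 1
  · have h5 : φ.range = alternatingGroup (Fin n) := le_antisymm (by rintro _ ⟨x, rfl⟩; exact c1 x)
      fun σ hσ => (h2 σ hσ).imp fun _ h => h.1
    refine .inl ⟨h5 ▸ alternatingGroup.index_eq_two, ⟨(e0.trans (MulEquiv.subgroupCongr (le_antisymm ?_ ?_))).trans
      (prodEquiv _ _)⟩⟩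
    · rintro _ ⟨x, rfl⟩
      exact ⟨c1 x, h4 c1 x⟩
    · exact fun ⟨σ, τ⟩ h => key σ τ 1 (by simpa using h.1.symm) (by simpa using h.2.symm)
  push Not at c1
  obtain ⟨a, ha⟩ := c1
  replace ha := (hu _).resolve_left ha
  refine .inr ⟨eq_top_iff.mpr fun σ _ => ?_, ?_⟩
  · rcases hu (Perm.sign σ) with e | e
    · exact (h2 σ e).imp fun _ h => h.1
    · exact ⟨_, congrArg Prod.fst (key σ _ a (ha.trans e.symm) rfl).choose_spec⟩
  by_cases c2 : ∀ x, Perm.sign (θ x) = 1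
  · refine .inr (.inl ⟨((e0.trans (MulEquiv.subgroupCongr (le_antisymm ?_ ?_))).trans
      (prodEquiv ⊤ _)).trans (topEquiv.prodCongr (MulEquiv.refl _))⟩)
    · rintro _ ⟨x, rfl⟩
      exact ⟨trivial, c2 x⟩
    · rintro ⟨σ, τ⟩ h
      rcases hu (Perm.sign σ) with e | e
      exacts [key σ τ 1 (by simp [e]) (by simpa using h.2.symm), key σ τ a (ha.trans e.symm) ((c2 a).trans h.2.symm)]
  by_cases c3 : ∀ x, Perm.sign (φ x) = Perm.sign (θ x)
  · refine .inr (.inr ⟨e0.trans (MulEquiv.subgroupCongr (le_antisymm ?_ ?_))⟩)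
    · rintro _ ⟨x, rfl⟩
      simp [c3 x]
    · rintro ⟨σ, τ⟩ h
      have h5 : Perm.sign σ * Perm.sign τ = 1 := h
      rcases hu (Perm.sign σ) with e | e <;> rw [e] at h5
      · exact key σ τ 1 (by simp [e]) (by simpa using h5.symm)
      · exact key σ τ a (ha.trans e.symm) (by rw [← c3, ha]; simpa [neg_eq_iff_eq_neg] using h5.symm)
  push Not at c2 c3
  obtain ⟨b, hb⟩ := c2
  obtain ⟨c, hc⟩ := c3
  replace hb := (hu _).resolve_left hb
  refine .inl ⟨(e0.trans (MulEquiv.subgroupCongr (eq_top_iff.mpr fun ⟨σ, τ⟩ _ => ?_))).trans topEquiv⟩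
  have h5 : ∃ x ∈ [1, a, b, c, a * b, a * c, b * c], Perm.sign (φ x) = Perm.sign σ ∧
      Perm.sign (θ x) = Perm.sign τ := by
    simp only [List.mem_cons, List.not_mem_nil, or_false, exists_eq_or_imp, exists_eq_left, map_mul, map_one, ha, hb]
    revert hc
    generalize Perm.sign (φ b) = u1
    generalize Perm.sign (φ c) = u2
    generalize Perm.sign (θ a) = u3
    generalize Perm.sign (θ c) = u4
    generalize Perm.sign σ = u5
    generalize Perm.sign τ = u6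
    revert u1 u2 u3 u4 u5 u6
    decide
  obtain ⟨x, -, e1, e2⟩ := h5
  exact key σ τ x e1 e2

end Cfsg.Agent.Perm2.Knapp
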