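import Cfsg.Agent.Perm2.Knapp1

/-! Primitive groups with an alternating or symmetric subconstituent. -/

set_option autoImplicit false

namespace Cfsg.Agent.Perm2.Knapp

open MulAction Subgroup Equiv

variable {G Ω : Type*} [Group G] [MulAction G Ω]

/-- A coordinatized action of a point stabilizer on a suborbit. -/
structure Rep {d : ℕ} (a b : Ω) (φ : stabilizer G a →* Perm (Fin d)) : Prop where
  ker : ∀ x, φ x = 1 ↔ (x : G) ∈ Ker G a b
  pt : ∃ i, ∀ x, φ x i = i ↔ (x : G) ∈ stabilizer G a ⊓ stabilizer G b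

theorem exists_rep [Finite G] {d : ℕ} {a b : Ω} (h : Nat.card (orbit (stabilizer G a) b) = d) :
    ∃ φ : stabilizer G a →* Perm (Fin d), Rep a b φ := by
  have : Finite (orbit (stabilizer G a) b) := (Set.finite_range _).to_subtype
  let e := Finite.equivFinOfCardEq h
  refine ⟨e.permCongrHom.toMonoidHom.comp (toPermHom _ _), fun x => ?_, e ⟨b, mem_orbit_self b⟩, fun x => ?_⟩
  · rw [← mem_subgroupOf, Ker_subgroupOf]
    exact map_eq_one_iff e.permCongrHom e.permCongrHom.injective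
  · simp [Subtype.ext_iff, Subgroup.smul_def]

theorem Rep.card_range {d : ℕ} {a b : Ω} {φ : stabilizer G a →* Perm (Fin d)} (h : Rep a b φ) :
    Nat.card φ.range = (Ker G a b).relIndex (stabilizer G a) := by
  rw [← index_ker, relIndex]
  congr 1
  exact Subgroup.ext h.ker

/-- The suborbit has length `d` and the group induced on it has index at most two. -/
def Big (G : Type*) {Ω : Type*} [Group G] [MulAction G Ω] (d : ℕ) (a b : Ω) : Prop :=
  Nat.card (orbit (stabilizer G a) b) = d ∧ d.factorial ≤ 2 * (Ker G a b).relIndex (stabilizer G a)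

theorem relIndex_Ker_smul (g : G) (a b : Ω) :
    (Ker G (g • a) (g • b)).relIndex (stabilizer G (g • a)) = (Ker G a b).relIndex (stabilizer G a) := by
  rw [Ker_smul, stabilizer_smul_eq_stabilizer_map_conj]
  exact relIndex_map_map_of_injective _ _ (MulAut.conj g).injective

theorem Big.smul {d : ℕ} {a b : Ω} (h : Big G d a b) (g : G) : Big G d (g • a) (g • b) :=
  ⟨(card_suborbit_smul g a b).trans h.1, by rw [relIndex_Ker_smul]; exact h.2⟩

theorem Big.alt {d : ℕ} {a b : Ω} (h : Big G d a b) {φ : stabilizer G a →* Perm (Fin d)} (hφ : Rep a b φ) :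
    alternatingGroup (Fin d) ≤ φ.range := by
  refine Perm.alternatingGroup_le_of_index_le_two ?_
  have h1 := φ.range.card_mul_index
  have h2 := h.2
  rw [Nat.card_perm, Nat.card_fin] at h1
  rw [← hφ.card_range, ← h1, mul_comm 2] at h2
  exact Nat.le_of_mul_le_mul_left h2 Nat.card_pos

variable [Finite G] [FaithfulSMul G Ω] (hprim : IsPreprimitive G Ω) {m : ℕ} (hm : 5 ≤ m) {a b : Ω}
include hm

omit [Finite G] [FaithfulSMul G Ω] in
theorem Big.ne (h : Big G (m + 1) a b) : stabilizer G a ≠ stabilizer G b :=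
  stab_ne_of_two_le_card (by rw [h.1]; omega)

include hprim

theorem Big.Op_eq_bot (h : Big G (m + 1) a b) (p : ℕ) (hp : p.Prime) :
    Op p (stabilizer G a ⊓ stabilizer G b) = ⊥ := by
  have : Fact p.Prime := ⟨hp⟩
  obtain ⟨φ, hφ⟩ := exists_rep h.1
  obtain ⟨i, hi⟩ := hφ.pt
  obtain ⟨ρ, h1, h2⟩ := exists_restr φ i inf_le_left hi
  refine Op_inf_eq_bot hprim (fun e => h.ne hm (by rw [e])) fun x hx => ?_
  have h3 : im ρ (Op p (stabilizer G a ⊓ stabilizer G b)) = ⊥ := by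
    by_contra h3
    have h4 := (((Op_isPGroup p _).comap_subtype).map ρ).to_le
      (im_alt hm (im_self.ge.trans' (h2 (h.alt hφ))) (Op_normalIn p _) h3)
    have := alternatingGroup.isSimpleGroup (show 5 ≤ Nat.card (Fin m) by simpa using hm)
    have : Nontrivial (alternatingGroup (Fin m)) := inferInstance
    have h5 := h4.center_nontrivial
    rw [alternatingGroup.center_eq_bot (by simpa using (show 4 ≤ m by omega))] at h5
    exact not_nontrivial _ h5
  exact (hφ.ker _).mp ((h1 ⟨x, Op_le _ _ hx⟩).1.mp (h3.le ⟨_, hx, rfl⟩))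

theorem Big.Ker_le (h : Big G (m + 1) a b) {g : G} (hg : g • a = b) : Ker G b a ≤ Ker G b (g • b) := by
  have h' := h.smul g
  rw [hg] at h'
  obtain ⟨ψ, hψ⟩ := exists_rep h'.1
  have h0 : Nat.card (orbit (stabilizer G b) a) = m + 1 := (card_suborbit_symm b a).trans h.1
  by_contra hn
  have h1 : alternatingGroup _ ≤ im ψ (Ker G b a) := im_alt (by omega) (im_self.ge.trans' (h'.alt hψ))
    (Ker_normalIn b a) fun e => hn fun x hx => (hψ.ker ⟨x, hx.1⟩).mp (e.le ⟨_, hx, rfl⟩)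
  have key : ∀ (x y : Ω) (X : Subgroup G), Nat.card (orbit (stabilizer G x) y) = m + 1 → X ≤ Ker G x y →
      X ≤ stabilizer G b → alternatingGroup _ ≤ im ψ X → alternatingGroup _ ≤
      im ψ (X ⊓ ⨅ z : orbit (stabilizer G x) y, Ker G (z : Ω) x) := by
    intro x y X hxy h2 h3 h4
    have : Finite (orbit (stabilizer G x) y) := (Set.finite_range _).to_subtype
    have h5 : ∀ z : orbit (stabilizer G x) y, NormalIn (Ker G (z : Ω) x) (stabilizer G (z : Ω) ⊓ stabilizer G x) :=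
      fun z => (Ker_normalIn _ _).of_le (le_inf (Ker_le_left _ _) (Ker_le_right _ _)) inf_le_left
    have h6 : ∀ z : orbit (stabilizer G x) y, NormalIn (X ⊓ Ker G (z : Ω) x) X := fun z => by
      have := (h5 z).inf_right X
      rwa [inf_eq_right.mpr (h2.trans (Ker_le_of_mem_suborbit z.2)), inf_comm] at this
    refine im_alt_iInf (by omega) h4 _ h6 fun z => im_alt_of_index (by omega) h3 h4 (h6 z) ?_
    rw [inf_relIndex_left]
    refine ((h5 z).relIndex_dvd (h2.trans (Ker_le_of_mem_suborbit z.2))).trans ?_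
    have := relIndex_Ker_inf_dvd (G := G) (z : Ω) x
    rwa [card_suborbit_of_mem z.2, hxy] at this
  have h2 := key b a _ h0 le_rfl (Ker_le_left _ _) h1
  have h3 := key a b (Ker2 G b a) h.1 (Ker2_le_swap b a) ((Ker2_le b a).trans (Ker_le_left _ _)) h2
  rcases Ker2_eq_bot_of_Op_eq_bot hprim (h.ne hm) (h.Op_eq_bot hprim hm) with e | e
  · exact ne_bot_of_im (by omega) (h3.trans (im_mono (inf_le_inf_right _ (Ker2_le_swap b a)))) e
  · exact ne_bot_of_im (by omega) h2 e

theorem Big.symm (h : Big G (m + 1) a b) : Big G (m + 1) b a := by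
  obtain ⟨g, hg⟩ := exists_smul_eq G a b
  refine ⟨(card_suborbit_symm b a).trans h.1, ?_⟩
  have h' := (h.smul g).2
  rw [hg] at h'
  exact h'.trans (Nat.mul_le_mul_left 2 (relIndex_le_of_le_left (h.Ker_le hprim hm hg) index_ne_zero_of_finite))

theorem Big.Ker_eq (h : Big G (m + 1) a b) {g : G} (hg : g • a = b) : Ker G b a = Ker G (g • a) (g • b) := by
  rw [hg]
  refine le_antisymm (h.Ker_le hprim hm hg) fun x hx => ?_
  have h1 := (h.symm hprim hm).Ker_le hprim hm (inv_smul_eq_iff.mpr hg.symm)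
  have h2 := conj_mem_Ker (h := g) (h1 (mem_Ker_smul_iff.mp (show x ∈ Ker G (g • a) (g • b) by rwa [hg])))
  rwa [hg, smul_inv_smul, show g * (g⁻¹ * x * g) * g⁻¹ = x by group] at h2

theorem Big.cent (h : Big G (m + 1) a b) (hM : Ker G a b ≠ ⊥) :
    ¬ stabilizer G a ⊓ centralizer (Ker G a b : Set G) ≤ Ker G a b := by
  intro h1
  obtain ⟨g, hg⟩ := exists_smul_eq G a b
  have h2 : stabilizer G b ⊓ centralizer (Ker G b a : Set G) ≤ Ker G b a := fun x hx => by
    rw [h.Ker_eq hprim hm hg] at hx ⊢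
    refine mem_Ker_smul_iff.mpr (h1 ⟨?_, fun y hy => ?_⟩)
    · show (g⁻¹ * x * g) • a = a
      rw [mul_smul, mul_smul, hg, mem_stabilizer_iff.mp hx.1, inv_smul_eq_iff, hg]
    · have := hx.2 _ (conj_mem_Ker (h := g) hy)
      calc _ = g⁻¹ * (g * y * g⁻¹ * x) * g := by group
        _ = _ := by rw [this]; group
  have key : ∀ x y : Ω, stabilizer G x ⊓ centralizer (Ker G x y : Set G) ≤ Ker G x y →
      NormalIn (Lay (stabilizer G x ⊓ stabilizer G y)) (stabilizer G x) := by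
    intro x y h3
    have h4 : NormalIn (Ker G x y) (stabilizer G x ⊓ stabilizer G y) :=
      (Ker_normalIn _ _).of_le (le_inf (Ker_le_left _ _) (Ker_le_right _ _)) inf_le_left
    have h5 : Lay (stabilizer G x ⊓ stabilizer G y) = Lay (Ker G x y) := by
      refine le_antisymm (sSup_le fun L hL => le_Lay (hL.1.of_le ?_ h4.1) hL.2)
        (sSup_le fun L hL => le_Lay (hL.1.trans h4.subnIn) hL.2)
      refine (hL.2.le_or_commutator_eq_bot hL.1 h4.2).elim id fun e => ?_
      rw [inf_eq_left.mpr h4.1, commutator_comm, commutator_eq_bot_iff_le_centralizer] at e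
      exact (le_inf (hL.1.le.trans inf_le_left) e).trans h3
    rw [h5]
    exact ⟨(Lay_le _).trans (Ker_le_left _ _), (Ker_normalIn _ _).2.trans (normalizer_le_normalizer_Lay _)⟩
  have h3 := (twData hprim (h.ne hm)).eq_bot (key a b h1) (inf_comm (stabilizer G b) _ ▸ key b a h2)
  rcases exists_QS_or_Op hM ((Ker_normalIn a b).of_le (le_inf (Ker_le_left _ _) (Ker_le_right _ _))
    inf_le_left).subnIn with ⟨L, -, l1, l2, -⟩ | ⟨p, hp, e⟩
  · exact l2.1 (le_bot_iff.mp (h3 ▸ le_Lay l1 l2))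
  · exact e (by rw [h.Op_eq_bot hprim hm p hp, inf_bot_eq])

omit hprim hm [Finite G] [FaithfulSMul G Ω] in
theorem cent_normalIn (a b : Ω) : NormalIn (stabilizer G a ⊓ centralizer (Ker G a b : Set G)) (stabilizer G a) :=
  ⟨inf_le_left, (le_inf le_normalizer ((Ker_normalIn a b).2.trans (normalizer_le_normalizer_centralizer' _))).trans
    inf_normalizer_le_normalizer_inf⟩

theorem Big.alt_cent (h : Big G (m + 1) a b) (hM : Ker G a b ≠ ⊥) {φ : stabilizer G a →* Perm (Fin (m + 1))}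
    (hφ : Rep a b φ) : alternatingGroup _ ≤ im φ (stabilizer G a ⊓ centralizer (Ker G a b : Set G)) :=
  im_alt (by omega) (im_self.ge.trans' (h.alt hφ)) (cent_normalIn a b) fun e =>
    h.cent hprim hm hM fun x hx => (hφ.ker ⟨x, hx.1⟩).mp (e.le ⟨_, hx, rfl⟩)

theorem Big.factor (h : Big G (m + 1) a b) (hM : Ker G a b ≠ ⊥) {x : G} (hx : x ∈ stabilizer G a) :
    ∃ c ∈ stabilizer G a ⊓ centralizer (Ker G a b : Set G), c⁻¹ * x ∈ stabilizer G a ⊓ stabilizer G b := by
  obtain ⟨φ, hφ⟩ := exists_rep h.1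
  obtain ⟨i, hi⟩ := hφ.pt
  have := alternatingGroup.isPretransitive_of_three_le_card (Fin (m + 1)) (by simp; omega)
  obtain ⟨σ, hσ⟩ := exists_smul_eq (alternatingGroup (Fin (m + 1))) i (φ ⟨x, hx⟩ i)
  obtain ⟨c, hc, e⟩ := h.alt_cent hprim hm hM hφ σ.2
  refine ⟨c, hc, (hi (c⁻¹ * ⟨x, hx⟩)).mp ?_⟩
  rw [map_mul, map_inv, e, Perm.mul_apply, ← hσ]
  exact Equiv.symm_apply_apply _ _

theorem Big.Ker_ne (h : Big G (m + 1) a b) (hM : Ker G a b ≠ ⊥) : Ker G b a ≠ ⊥ := by
  obtain ⟨g, hg⟩ := exists_smul_eq G a b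
  rwa [h.Ker_eq hprim hm hg, Ker_smul, Ne, map_eq_bot_iff_of_injective _ (MulAut.conj g).injective]

theorem Big.inf_eq_bot (h : Big G (m + 1) a b) (hM : Ker G a b ≠ ⊥) : Ker G a b ⊓ Ker G b a = ⊥ := by
  have key : ∀ x y : Ω, Big G (m + 1) x y → Ker G x y ≠ ⊥ → NormalIn (Ker G x y ⊓ Ker G y x) (stabilizer G x) := by
    intro x y h1 h2
    refine ⟨inf_le_left.trans (Ker_le_left _ _), fun g hg => ?_⟩
    obtain ⟨c, hc, e⟩ := h1.factor hprim hm h2 hg
    refine (mul_mem_cancel_left (inv_mem (centralizer_le_normalizer _ (centralizer_le inf_le_left hc.2)))).mp ?_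
    exact inf_normalizer_le_normalizer_inf ⟨(Ker_normalIn _ _).2 e.1, (Ker_normalIn _ _).2 e.2⟩
  exact (twData hprim (h.ne hm)).eq_bot (key a b h hM)
    (inf_comm (Ker G b a) _ ▸ key b a (h.symm hprim hm) (h.Ker_ne hprim hm hM))

theorem Big.main (h : Big G (m + 1) a b) (hM : Ker G a b ≠ ⊥) {φ : stabilizer G a →* Perm (Fin (m + 1))}
    (hφ : Rep a b φ) :
    (φ.range.index = 2 ∧
      Nonempty (stabilizer G a ≃* alternatingGroup (Fin (m + 1)) × alternatingGroup (Fin m))) ∨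
    (φ.range = ⊤ ∧ (Nonempty (stabilizer G a ≃* Perm (Fin (m + 1)) × Perm (Fin m)) ∨
      Nonempty (stabilizer G a ≃* Perm (Fin (m + 1)) × alternatingGroup (Fin m)) ∨
      Nonempty (stabilizer G a ≃* ((Perm.sign.comp (MonoidHom.fst (Perm (Fin (m + 1))) (Perm (Fin m)))) *
        (Perm.sign.comp (MonoidHom.snd (Perm (Fin (m + 1))) (Perm (Fin m))))).ker))) := by
  have h' := h.symm hprim hm
  obtain ⟨ψ, hψ⟩ := exists_rep h'.1
  obtain ⟨i, hi⟩ := hψ.pt
  obtain ⟨ρ, r1, r2⟩ := exists_restr ψ i inf_le_left hi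
  have hT := h.inf_eq_bot hprim hm hM
  have hMD : NormalIn (Ker G a b) (stabilizer G b ⊓ stabilizer G a) :=
    (Ker_normalIn _ _).of_le (le_inf (Ker_le_right _ _) (Ker_le_left _ _)) inf_le_right
  have hND : NormalIn (Ker G b a) (stabilizer G b ⊓ stabilizer G a) :=
    (Ker_normalIn _ _).of_le (le_inf (Ker_le_left _ _) (Ker_le_right _ _)) inf_le_left
  have h1 : alternatingGroup _ ≤ im ρ (Ker G a b) := im_alt hm (im_self.ge.trans' (r2 (h'.alt hψ))) hMD fun e =>
    hM (hT ▸ (inf_eq_left.mpr fun x hx => (hψ.ker _).mp ((r1 ⟨x, hMD.1 hx⟩).1.mp (e.le ⟨_, hx, rfl⟩))).symm)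
  set C := stabilizer G a ⊓ centralizer (Ker G a b : Set G)
  have := (cent_normalIn (G := G) a b).normal_subgroupOf
  let f := (QuotientGroup.mk' (C.subgroupOf (stabilizer G a))).comp
    (inclusion (inf_le_right : stabilizer G b ⊓ stabilizer G a ≤ _))
  have hf : Function.Surjective f := fun q => by
    obtain ⟨x, rfl⟩ := QuotientGroup.mk_surjective q
    obtain ⟨c, hc, e⟩ := h.factor hprim hm hM x.2
    refine ⟨⟨_, e.2, e.1⟩, QuotientGroup.eq.mpr ?_⟩
    have h2 := (cent_normalIn a b).conj_mem' x.2 hc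
    show ((c⁻¹ * x)⁻¹ * x : G) ∈ C
    rwa [mul_inv_rev, inv_inv]
  have hk : f.ker ≤ ρ.ker := fun x hx => by
    have h2 : (x : G) ∈ C := (QuotientGroup.eq_one_iff (N := C.subgroupOf (stabilizer G a)) _).mp hx
    refine eq_one_of_comm hm fun τ hτ => ?_
    obtain ⟨y, hy, rfl⟩ := h1 hτ
    rw [← map_mul, ← map_mul]
    exact congrArg ρ (Subtype.ext (h2.2 _ hy))
  let θ := (f.liftOfSurjective hf ⟨ρ, hk⟩).comp (QuotientGroup.mk' (C.subgroupOf (stabilizer G a)))
  have t1 : ∀ (x : stabilizer G a) (hx : (x : G) ∈ stabilizer G b), θ x = ρ ⟨x, hx, x.2⟩ := fun x hx =>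
    f.liftOfRightInverse_comp_apply _ (Function.rightInverse_surjInv hf) ⟨ρ, hk⟩ ⟨x, hx, x.2⟩
  have t2 : ∀ x : stabilizer G a, (x : G) ∈ C → θ x = 1 := fun x hx => by
    rw [MonoidHom.comp_apply, QuotientGroup.mk'_apply, (QuotientGroup.eq_one_iff x).mpr hx, map_one]
  refine classify (by omega) φ θ (fun x e1 e2 => ?_) (fun σ hσ => ?_) (fun τ hτ => ?_) fun e x => ?_
  · have h2 := (hφ.ker x).mp e1
    rw [t1 x (Ker_le_right _ _ h2), (r1 _).1, hψ.ker] at e2
    exact Subtype.ext (hT.le ⟨h2, e2⟩)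
  · obtain ⟨c, hc, e⟩ := h.alt_cent hprim hm hM hφ hσ
    exact ⟨c, e, t2 c hc⟩
  · obtain ⟨y, hy, e⟩ := h1 hτ
    exact ⟨⟨y, y.2.2⟩, (hφ.ker _).mpr hy, (t1 _ y.2.1).trans e⟩
  · obtain ⟨c, hc, e'⟩ := h.factor hprim hm hM x.2
    obtain ⟨g, hg⟩ := exists_smul_eq G a b
    have h2 : Nat.card ψ.range ≤ Nat.card (alternatingGroup (Fin (m + 1))) := by
      have h3 := relIndex_Ker_smul g a b
      rw [← h.Ker_eq hprim hm hg, hg] at h3
      rw [hψ.card_range, h3, ← hφ.card_range]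
      exact card_le_of_le (by rintro _ ⟨x, rfl⟩; exact e x)
    have h3 := eq_of_le_of_card_ge (h'.alt hψ) h2
    rw [show x = ⟨c, hc.1⟩ * ⟨_, e'.1⟩ from Subtype.ext (mul_inv_cancel_left _ _).symm, map_mul, t2 _ hc, one_mul,
      t1 _ e'.2, (r1 _).2]
    exact h3.ge ⟨_, rfl⟩

end Cfsg.Agent.Perm2.Knapp
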