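import Mathlib

/-! An abelian normal subgroup acting faithfully and irreducibly on a finite abelian group. -/

set_option autoImplicit false

namespace Cfsg.Agent.Perm2

theorem ringHom_eq_pow_of_finite_field {K : Type*} [Field K] [Finite K] {p d : ℕ} (hp : p.Prime)
    (hcard : Nat.card K = p ^ d) (σ : K →+* K) : ∃ i : ℕ, ∀ x, σ x = x ^ (p ^ i) := by
  have : Fact p.Prime := ⟨hp⟩
  have := Fintype.ofFinite K
  have : CharP K p := charP_of_card_eq_prime_pow (f := d) (by rw [← Nat.card_eq_fintype_card, hcard])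
  let _ : Algebra (ZMod p) K := ZMod.algebra K p
  let τ : K →ₐ[ZMod p] K :=
    { σ with
      commutes' := fun r => by
        have : σ.comp (algebraMap (ZMod p) K) = algebraMap (ZMod p) K := Subsingleton.elim _ _
        exact DFunLike.congr_fun this r }
  obtain ⟨n, hn⟩ := (FiniteField.bijective_frobeniusAlgHom_pow (ZMod p) K).2 τ
  refine ⟨n, fun x => ?_⟩
  have h1 := DFunLike.congr_fun hn x
  simp only [AlgHom.coe_pow, FiniteField.coe_frobeniusAlgHom, pow_iterate, ZMod.card] at h1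
  exact h1.symm

theorem not_forall_pow_eq_of_finite_field {K : Type*} [Field K] [Finite K] {p d i : ℕ} (hp : p.Prime)
    (hcard : Nat.card K = p ^ d) (hi : 0 < i) (hid : i < d) : ¬ ∀ x : K, x ^ (p ^ i) = x := by
  intro h
  have := Fintype.ofFinite K
  have h1 : ∀ x : Kˣ, x ^ (p ^ i - 1) = 1 := by
    intro x
    have h2 : x ^ (p ^ i) = x := Units.ext (by simpa using h x)
    have h3 : p ^ i = p ^ i - 1 + 1 := (Nat.sub_add_cancel (Nat.one_le_pow _ _ hp.pos)).symm
    rw [h3, pow_succ] at h2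
    simpa using h2
  rw [FiniteField.forall_pow_eq_one_iff, ← Nat.card_eq_fintype_card, hcard] at h1
  have h4 : 1 < p ^ i := Nat.one_lt_pow hi.ne' hp.one_lt
  have h5 : p ^ i < p ^ d := Nat.pow_lt_pow_right hp.one_lt hid
  have := Nat.le_of_dvd (by omega) h1
  omega

/-- Let `H` act faithfully on a finite abelian group `V` of order `p ^ d`, and let `M` be an abelian normal
subgroup acting irreducibly. Then `M` is cyclic, `d` is least with `m ^ p ^ d = m` on `M`, and
`d`-th powers centralize `M`. -/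
theorem singer {V H : Type*} [AddCommGroup V] [Finite V] [Nontrivial V] [Group H] [Finite H] {p d : ℕ}
    (hp : p.Prime) (hcard : Nat.card V = p ^ d) (ρ : H →* AddMonoid.End V)
    (hρ : Function.Injective ρ) (M : Subgroup H) [hM : M.Normal]
    (hab : ∀ m ∈ M, ∀ n ∈ M, m * n = n * m)
    (hirr : ∀ W : AddSubgroup V, (∀ m ∈ M, ∀ w ∈ W, ρ m w ∈ W) → W = ⊥ ∨ W = ⊤) :
    IsCyclic M ∧ (∀ m ∈ M, m ^ (p ^ d) = m) ∧
      (∀ i, 0 < i → i < d → ¬ ∀ m ∈ M, m ^ (p ^ i) = m) ∧
      ∀ h : H, ∀ m ∈ M, h ^ d * m = m * h ^ d := by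
  classical
  have hfinE : Finite (AddMonoid.End V) := Finite.of_injective (fun f : AddMonoid.End V => (f : V → V))
    DFunLike.coe_injective
  let K : Subring (AddMonoid.End V) := Subring.centralizer (ρ '' M)
  have hK : ∀ x, x ∈ K ↔ ∀ m ∈ M, ρ m * x = x * ρ m := by
    intro x
    rw [Subring.mem_centralizer_iff]
    simp
  have hMK : ∀ m ∈ M, ρ m ∈ K := by
    intro m hm
    rw [hK]
    intro n hn
    rw [← map_mul, ← map_mul, hab n hn m hm]
  have hinj : ∀ x : K, x ≠ 0 → ∀ v : V, x.1 v = 0 → v = 0 := by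
    intro x hx v hv
    rcases hirr (AddMonoidHom.ker x.1) (fun m hm w hw => by
      have hw' : x.1 w = 0 := hw
      show x.1 (ρ m w) = 0
      have : ρ m (x.1 w) = x.1 (ρ m w) := DFunLike.congr_fun ((hK x).mp x.2 m hm) w
      rw [← this, hw', map_zero]) with h | h
    · have : v ∈ AddMonoidHom.ker x.1 := hv
      rwa [h, AddSubgroup.mem_bot] at this
    · exfalso
      apply hx
      apply Subtype.ext
      ext w
      have : w ∈ AddMonoidHom.ker x.1 := h ▸ AddSubgroup.mem_top w
      exact this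
  obtain ⟨v, hv⟩ := exists_ne (0 : V)
  have hnt : Nontrivial K := ⟨⟨0, 1, fun h => hv (by
    have := DFunLike.congr_fun (congrArg Subtype.val h) v
    exact this.symm)⟩⟩
  have hnz : NoZeroDivisors K := ⟨fun {x y} hxy => by
    by_contra hcon
    push Not at hcon
    apply hv
    apply hinj y hcon.2
    apply hinj x hcon.1
    exact DFunLike.congr_fun (congrArg Subtype.val hxy) v⟩
  have hdom : IsDomain K := NoZeroDivisors.to_isDomain K
  have hF : IsField K := Finite.isDomain_to_isField K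
  -- evaluation at `v`
  have hev : ∀ K0 : Subring K, (∀ m (hm : m ∈ M), (⟨ρ m, hMK m hm⟩ : K) ∈ K0) →
      ∀ w : V, ∃ x ∈ K0, x.1 v = w := by
    intro K0 hK0
    let W : AddSubgroup V :=
      { carrier := {w | ∃ x ∈ K0, x.1 v = w}
        zero_mem' := ⟨0, zero_mem _, rfl⟩
        add_mem' := by
          rintro _ _ ⟨x, hx, rfl⟩ ⟨y, hy, rfl⟩
          exact ⟨x + y, add_mem hx hy, rfl⟩
        neg_mem' := by
          rintro _ ⟨x, hx, rfl⟩
          exact ⟨-x, neg_mem hx, rfl⟩ }
    rcases hirr W (by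
      rintro m hm _ ⟨x, hx, rfl⟩
      exact ⟨⟨ρ m, hMK m hm⟩ * x, mul_mem (hK0 m hm) hx, rfl⟩) with h | h
    · exfalso
      have : v ∈ W := ⟨1, one_mem _, rfl⟩
      rw [h, AddSubgroup.mem_bot] at this
      exact hv this
    · intro w
      have : w ∈ W := h ▸ AddSubgroup.mem_top w
      exact this
  have hevinj : ∀ x y : K, x.1 v = y.1 v → x = y := by
    intro x y h
    by_contra hne
    apply hv
    apply hinj (x - y) (sub_ne_zero.mpr hne)
    show x.1 v - y.1 v = 0
    rw [h, sub_self]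
  have hKcard : Nat.card K = p ^ d := by
    rw [← hcard]
    apply Nat.card_eq_of_bijective (fun x : K => x.1 v)
    refine ⟨hevinj, fun w => ?_⟩
    obtain ⟨x, -, hx⟩ := hev ⊤ (fun _ _ => Subring.mem_top _) w
    exact ⟨x, hx⟩
  let f : M →* K :=
    { toFun := fun m => ⟨ρ m, hMK m m.2⟩
      map_one' := Subtype.ext (by simp)
      map_mul' := fun m n => Subtype.ext (by simp) }
  have hf : Function.Injective f := fun m n h => Subtype.ext (hρ (congrArg Subtype.val h))
  let _ : Field K := hF.toField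
  have := Fintype.ofFinite K
  have : Fact p.Prime := ⟨hp⟩
  have hpowK : ∀ x : K, x ^ (p ^ d) = x := by
    intro x
    rw [← hKcard, Nat.card_eq_fintype_card]
    exact FiniteField.pow_card x
  have hpowM : ∀ m ∈ M, m ^ (p ^ d) = m := by
    intro m hm
    have : (⟨m, hm⟩ : M) ^ (p ^ d) = ⟨m, hm⟩ := hf (by rw [map_pow, hpowK])
    exact congrArg Subtype.val this
  refine ⟨isCyclic_of_injective_ringHom f hf, hpowM, ?_, ?_⟩
  · intro i hi hid hcon
    have : CharP K p := charP_of_card_eq_prime_pow (f := d) (by rw [← Nat.card_eq_fintype_card, hKcard])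
    apply not_forall_pow_eq_of_finite_field hp hKcard hi hid
    intro x
    obtain ⟨y, hy, hyx⟩ := hev (RingHom.eqLocus (iterateFrobenius K p i) (RingHom.id K)) (by
      intro m hm
      show (f ⟨m, hm⟩) ^ (p ^ i) = f ⟨m, hm⟩
      rw [← map_pow]
      congr 1
      exact Subtype.ext (hcon m hm)) (x.1 v)
    rw [← hevinj y x hyx]
    exact hy
  · intro h m hm
    have hinv : ρ h⁻¹ * ρ h = 1 := by rw [← map_mul, inv_mul_cancel, map_one]
    have hinv' : ρ h * ρ h⁻¹ = 1 := by rw [← map_mul, mul_inv_cancel, map_one]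
    let σ : K →+* K :=
      { toFun := fun x => ⟨ρ h * x.1 * ρ h⁻¹, by
          rw [hK]
          intro n hn
          have h1 := (hK x).mp x.2 _ (hM.conj_mem n hn h⁻¹)
          rw [inv_inv, map_mul, map_mul] at h1
          calc ρ n * (ρ h * x.1 * ρ h⁻¹) = (ρ h * ρ h⁻¹) * ρ n * (ρ h * x.1 * ρ h⁻¹) := by
                rw [hinv', one_mul]
            _ = ρ h * (ρ h⁻¹ * ρ n * ρ h * x.1) * ρ h⁻¹ := by simp only [mul_assoc]
            _ = ρ h * (x.1 * (ρ h⁻¹ * ρ n * ρ h)) * ρ h⁻¹ := by rw [h1]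
            _ = ρ h * x.1 * ρ h⁻¹ * ρ n * (ρ h * ρ h⁻¹) := by simp only [mul_assoc]
            _ = ρ h * x.1 * ρ h⁻¹ * ρ n := by rw [hinv', mul_one]⟩
        map_one' := Subtype.ext (by simp [hinv'])
        map_mul' := fun x y => Subtype.ext (by
          show ρ h * (x.1 * y.1) * ρ h⁻¹ = ρ h * x.1 * ρ h⁻¹ * (ρ h * y.1 * ρ h⁻¹)
          calc ρ h * (x.1 * y.1) * ρ h⁻¹ = ρ h * (x.1 * (ρ h⁻¹ * ρ h) * y.1) * ρ h⁻¹ := by
                rw [hinv, mul_one]
            _ = _ := by simp only [mul_assoc])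
        map_zero' := Subtype.ext (by simp)
        map_add' := fun x y => Subtype.ext (by
          show ρ h * (x.1 + y.1) * ρ h⁻¹ = ρ h * x.1 * ρ h⁻¹ + ρ h * y.1 * ρ h⁻¹
          rw [mul_add, add_mul]) }
    obtain ⟨i, hi⟩ := ringHom_eq_pow_of_finite_field hp hKcard σ
    have h1 : ∀ n ∈ M, h * n * h⁻¹ = n ^ (p ^ i) := by
      intro n hn
      apply hρ
      rw [map_mul, map_mul, map_pow]
      exact congrArg Subtype.val (hi ⟨ρ n, hMK n hn⟩)
    have h2 : ∀ k : ℕ, h ^ k * m * (h ^ k)⁻¹ = m ^ (p ^ (i * k)) := by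
      intro k
      induction k with
      | zero => simp
      | succ k ih =>
        calc h ^ (k + 1) * m * (h ^ (k + 1))⁻¹ = h * (h ^ k * m * (h ^ k)⁻¹) * h⁻¹ := by
              rw [pow_succ']; group
          _ = m ^ (p ^ (i * (k + 1))) := by
              rw [ih, h1 _ (pow_mem hm _), ← pow_mul, ← pow_add, mul_add, mul_one]
    have h3 : ∀ k : ℕ, m ^ (p ^ (k * d)) = m := by
      intro k
      induction k with
      | zero => simp
      | succ k ih => rw [add_mul, one_mul, pow_add, pow_mul, ih, hpowM m hm]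
    have h4 := h2 d
    rw [h3, mul_inv_eq_iff_eq_mul] at h4
    exact h4

/-- A nontrivial solvable group has a nontrivial abelian normal subgroup. -/
theorem exists_abelian_normal_of_solvable (G : Type*) [Group G] [Nontrivial G] [hG : Group.IsSolvable G] :
    ∃ N : Subgroup G, N.Normal ∧ N ≠ ⊥ ∧ ∀ m ∈ N, ∀ n ∈ N, m * n = n * m := by
  classical
  have hex : ∃ n, derivedSeries G n = ⊥ := hG.solvable
  have h0 : Nat.find hex ≠ 0 := by
    intro h
    have := Nat.find_spec hex
    rw [h, derivedSeries_zero] at this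
    exact top_ne_bot this
  obtain ⟨k, hk⟩ := Nat.exists_eq_succ_of_ne_zero h0
  refine ⟨derivedSeries G k, derivedSeries_normal G k, Nat.find_min hex (by omega), ?_⟩
  have h1 := Nat.find_spec hex
  rw [hk, derivedSeries_succ, Subgroup.commutator_eq_bot_iff_le_centralizer] at h1
  intro m hm n hn
  exact (Subgroup.mem_centralizer_iff.mp (h1 hn) m hm)

end Cfsg.Agent.Perm2
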