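import Cfsg.Agent.Perm2.TW
import Cfsg.Agent.Perm2.Ker

/-! The Thompson–Wielandt theorem for primitive permutation groups. -/

set_option autoImplicit false

namespace Cfsg.Agent.Perm2

open MulAction Subgroup

theorem index_iInf_dvd_prod {G ι : Type*} [Group G] [Fintype ι] (N : ι → Subgroup G)
    [∀ i, (N i).Normal] : (⨅ i, N i).index ∣ ∏ i, (N i).index := by
  let f : G →* ∀ i, G ⧸ N i := MonoidHom.pi fun i => QuotientGroup.mk' (N i)
  have hf : f.ker = ⨅ i, N i := by
    ext g
    simp only [MonoidHom.mem_ker, mem_iInf, funext_iff, f, MonoidHom.pi_apply, Pi.one_apply,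
      QuotientGroup.mk'_apply, QuotientGroup.eq_one_iff]
  rw [← hf, index_ker]
  refine (card_subgroup_dvd_card _).trans ?_
  rw [Nat.card_pi]
  rfl

theorem NormalIn.relIndex_dvd {G : Type*} [Group G] {N D M : Subgroup G} (h : NormalIn N D)
    (hM : M ≤ D) : N.relIndex M ∣ N.relIndex D := by
  have := h.normal_subgroupOf
  have h1 := relIndex_dvd_index_of_normal (N.subgroupOf D) (M.subgroupOf D)
  rwa [relIndex_subgroupOf hM] at h1

variable {G Ω : Type*} [Group G] [MulAction G Ω]

theorem Ker_normalIn (x y : Ω) : NormalIn (Ker G x y) (stabilizer G x) :=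
  ⟨Ker_le_left x y, stab_le_normalizer_Ker x y⟩

theorem twData [Finite G] [FaithfulSMul G Ω] (hprim : IsPreprimitive G Ω) {a b : Ω}
    (hab : stabilizer G a ≠ stabilizer G b) :
    TWData (stabilizer G a) (stabilizer G b) (Ker G a b) (Ker G b a) where
  primH := fun _ h1 h2 => normalizer_le_stabilizer hprim h1 h2.1 h2.2
  primK := fun _ h1 h2 => normalizer_le_stabilizer hprim h1 h2.1 h2.2
  ne := hab
  MH := Ker_normalIn a b
  MK := Ker_le_right a b
  Mmax := fun _ h1 h2 => le_Ker_of_normalized h1.1 h2 h1.2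
  NK := Ker_normalIn b a
  NH := Ker_le_right b a
  Nmax := fun _ h1 h2 => le_Ker_of_normalized h1.1 h2 h1.2

theorem stab_ne_of_two_le_card {a b : Ω} (h : 2 ≤ Nat.card (orbit (stabilizer G a) b)) :
    stabilizer G a ≠ stabilizer G b := by
  intro heq
  rw [card_suborbit, ← heq, relIndex_self] at h
  omega

theorem relIndex_Ker_dvd [Finite G] (x y : Ω) :
    (Ker G x y).relIndex (stabilizer G x) ∣ (Nat.card (orbit (stabilizer G x) y)).factorial := by
  classical
  have : Finite (orbit (stabilizer G x) y) := (Set.finite_range _).to_subtype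
  have := Fintype.ofFinite (orbit (stabilizer G x) y)
  rw [relIndex_Ker, ← Nat.card_perm]
  exact card_subgroup_dvd_card _

theorem relIndex_Ker_inf_mul (x y : Ω) :
    (Ker G x y).relIndex (stabilizer G x ⊓ stabilizer G y) * Nat.card (orbit (stabilizer G x) y) =
      (Ker G x y).relIndex (stabilizer G x) := by
  rw [card_suborbit, ← inf_relIndex_left (stabilizer G x)]
  exact relIndex_mul_relIndex _ _ _ (le_inf (Ker_le_left x y) (Ker_le_right x y)) inf_le_left

theorem card_suborbit_pos [Finite G] (x y : Ω) : 0 < Nat.card (orbit (stabilizer G x) y) := by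
  have : Finite (orbit (stabilizer G x) y) := (Set.finite_range _).to_subtype
  have : Nonempty (orbit (stabilizer G x) y) := ⟨⟨y, mem_orbit_self y⟩⟩
  exact Nat.card_pos

theorem relIndex_Ker_inf_dvd [Finite G] (x y : Ω) :
    (Ker G x y).relIndex (stabilizer G x ⊓ stabilizer G y) ∣
      (Nat.card (orbit (stabilizer G x) y) - 1).factorial := by
  have h1 := relIndex_Ker_dvd (G := G) x y
  have hpos := card_suborbit_pos (G := G) x y
  rw [← relIndex_Ker_inf_mul, ← Nat.mul_factorial_pred hpos.ne', mul_comm] at h1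
  exact Nat.dvd_of_mul_dvd_mul_left hpos h1

variable (G) in
/-- The second kernel: the elements of the kernel on the suborbit through `y` that fix the paired suborbits at
all points of that suborbit. -/
def Ker2 (x y : Ω) : Subgroup G :=
  Ker G x y ⊓ ⨅ z : orbit (stabilizer G x) y, Ker G (z : Ω) x

theorem Ker2_le (x y : Ω) : Ker2 G x y ≤ Ker G x y := inf_le_left

theorem Ker2_le' {x y z : Ω} (hz : z ∈ orbit (stabilizer G x) y) : Ker2 G x y ≤ Ker G z x :=
  inf_le_right.trans (iInf_le (fun z : orbit (stabilizer G x) y => Ker G (z : Ω) x) ⟨z, hz⟩)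

theorem Ker2_le_swap (x y : Ω) : Ker2 G x y ≤ Ker G y x := Ker2_le' (mem_orbit_self y)

theorem Ker2_normalIn (x y : Ω) : NormalIn (Ker2 G x y) (stabilizer G x) := by
  refine ⟨(Ker2_le x y).trans (Ker_le_left x y), ?_⟩
  rw [le_normalizer_iff]
  intro h hh g hg
  refine mem_inf.mpr ⟨(Ker_normalIn x y).conj_mem hh (Ker2_le x y hg), mem_iInf.mpr fun z => ?_⟩
  obtain ⟨k, hk, hz⟩ := mem_suborbit_iff.mp z.2
  have hh' : h⁻¹ • x = x := inv_mem hh
  have h1 : g ∈ Ker G (h⁻¹ • (z : Ω)) x :=
    Ker2_le' (mem_suborbit_iff.mpr ⟨h⁻¹ * k, by rw [mul_smul, hk, hh'], by rw [mul_smul, hz]⟩) hg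
  have h2 := conj_mem_Ker (h := h) h1
  rwa [smul_inv_smul, mem_stabilizer_iff.mp hh] at h2

theorem Ker_le_of_mem_suborbit {x y z : Ω} (hz : z ∈ orbit (stabilizer G x) y) :
    Ker G x y ≤ stabilizer G z ⊓ stabilizer G x := fun _ hg =>
  ⟨(mem_Ker'.mp hg).2 z hz, hg.1⟩

theorem card_suborbit_of_mem [Finite G] [IsPretransitive G Ω] {x y z : Ω}
    (hz : z ∈ orbit (stabilizer G x) y) :
    Nat.card (orbit (stabilizer G z) x) = Nat.card (orbit (stabilizer G x) y) := by
  rw [card_suborbit_symm z x, orbit_eq_iff.mpr hz]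

theorem relIndex_Ker2_dvd [Finite G] [IsPretransitive G Ω] (x y : Ω) :
    (Ker2 G x y).relIndex (stabilizer G x) ∣ (Nat.card (orbit (stabilizer G x) y)).factorial *
      (Nat.card (orbit (stabilizer G x) y) - 1).factorial ^ Nat.card (orbit (stabilizer G x) y) := by
  classical
  have : Finite (orbit (stabilizer G x) y) := (Set.finite_range _).to_subtype
  have := Fintype.ofFinite (orbit (stabilizer G x) y)
  rw [← relIndex_mul_relIndex _ _ _ (Ker2_le x y) (Ker_le_left x y), mul_comm]
  apply Nat.mul_dvd_mul (relIndex_Ker_dvd x y)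
  have hn : ∀ z : orbit (stabilizer G x) y,
      NormalIn (Ker G (z : Ω) x) (stabilizer G (z : Ω) ⊓ stabilizer G x) := fun z =>
    (Ker_normalIn _ _).of_le (le_inf (Ker_le_left _ _) (Ker_le_right _ _)) inf_le_left
  have hn' : ∀ z : orbit (stabilizer G x) y, ((Ker G (z : Ω) x).subgroupOf (Ker G x y)).Normal :=
    fun z => normal_subgroupOf_of_le_normalizer ((Ker_le_of_mem_suborbit z.2).trans (hn z).2)
  have h1 := index_iInf_dvd_prod (fun z : orbit (stabilizer G x) y =>
    (Ker G (z : Ω) x).subgroupOf (Ker G x y))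
  have h2 : (Ker2 G x y).relIndex (Ker G x y) =
      (⨅ z : orbit (stabilizer G x) y, (Ker G (z : Ω) x).subgroupOf (Ker G x y)).index := by
    rw [Ker2, inf_relIndex_left, relIndex, subgroupOf, comap_iInf]
    rfl
  rw [h2]
  refine h1.trans ?_
  rw [Nat.card_eq_fintype_card, ← Finset.card_univ, ← Finset.prod_const]
  apply Finset.prod_dvd_prod_of_dvd
  intro z _
  refine ((hn z).relIndex_dvd (Ker_le_of_mem_suborbit z.2)).trans ?_
  rw [Finset.card_univ, ← Nat.card_eq_fintype_card, ← card_suborbit_of_mem z.2]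
  exact relIndex_Ker_inf_dvd _ _

/-- If one of the second kernels is trivial, the order of a point stabilizer is bounded. -/
theorem card_stab_dvd_of_Ker2_eq_bot [Finite G] [IsPretransitive G Ω] {a b : Ω}
    (h : Ker2 G a b = ⊥ ∨ Ker2 G b a = ⊥) :
    Nat.card (stabilizer G a) ∣ (Nat.card (orbit (stabilizer G a) b)).factorial *
      (Nat.card (orbit (stabilizer G a) b) - 1).factorial ^ Nat.card (orbit (stabilizer G a) b) := by
  rcases h with h | h
  · have := relIndex_Ker2_dvd (G := G) a b
    rwa [h, relIndex_bot_left] at this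
  · have := relIndex_Ker2_dvd (G := G) b a
    rwa [h, relIndex_bot_left, ← card_stabilizer_eq a b, ← card_suborbit_symm a b] at this

/-- **Thompson–Wielandt theorem** for primitive groups. -/
theorem thompson_wielandt [Finite G] [FaithfulSMul G Ω] (hprim : IsPreprimitive G Ω) {a b : Ω}
    (hab : stabilizer G a ≠ stabilizer G b) :
    ∃ p : ℕ, p.Prime ∧ (IsPGroup p (Ker2 G a b) ∨ IsPGroup p (Ker2 G b a)) :=
  (twData hprim hab).exists_isPGroup (Ker2_normalIn a b) (Ker2_le_swap a b) (Ker2_normalIn b a)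
    (Ker2_le_swap b a)

/-- If the group induced on the suborbit by the two-point stabilizer has no nontrivial normal `p`-subgroup,
the two-point stabilizer has none either. -/
theorem Op_inf_eq_bot [Finite G] [FaithfulSMul G Ω] (hprim : IsPreprimitive G Ω) {a b : Ω}
    (hab : a ≠ b) {p : ℕ} [Fact p.Prime]
    (h : Op p (stabilizer G a ⊓ stabilizer G b) ≤ Ker G a b) :
    Op p (stabilizer G a ⊓ stabilizer G b) = ⊥ := by
  by_contra hne
  set R := Op p (stabilizer G a ⊓ stabilizer G b) with hR
  have hMD : NormalIn (Ker G a b) (stabilizer G a ⊓ stabilizer G b) :=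
    (Ker_normalIn a b).of_le (le_inf (Ker_le_left a b) (Ker_le_right a b)) inf_le_left
  have h1 : R = Op p (Ker G a b) :=
    le_antisymm (le_Op ((Op_normalIn p _).of_le h hMD.1) (Op_isPGroup p _)) (hMD.Op_le_Op p)
  have h2 : NormalIn R (stabilizer G a) := h1 ▸ (Ker_normalIn a b).Op_normalIn p
  have h3 := normalizer_le_stabilizer hprim hne h2.1 h2.2
  set Q := Op p (stabilizer G b) with hQ
  have hQn : NormalIn Q (stabilizer G b) := Op_normalIn p _
  have hRb : R ≤ stabilizer G b := (Op_le p _).trans inf_le_right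
  -- `Q ≤ R`
  have h4 : Q ≤ R := by
    have hp : IsPGroup p (R ⊔ Q : Subgroup G) :=
      IsPGroup.to_sup_of_normal_right' (Op_isPGroup p _) (Op_isPGroup p _) (hRb.trans hQn.2)
    have hnil : Group.IsNilpotent (R ⊔ Q : Subgroup G) := hp.isNilpotent
    have hnc : NormalizerCondition (R ⊔ Q : Subgroup G) := Group.normalizerCondition_of_isNilpotent
    have h5 : R.subgroupOf (R ⊔ Q) = ⊤ := by
      by_contra hlt
      have h6 := hnc _ (lt_top_iff_ne_top.mpr hlt)
      obtain ⟨x, hx, hxR⟩ := SetLike.exists_of_lt h6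
      rw [← subgroupOf_normalizer_eq le_sup_left, mem_subgroupOf] at hx
      have hx2 : (x : G) ∈ ((R ⊔ Q : Subgroup G) : Set G) := x.2
      rw [coe_mul_of_left_le_normalizer_right _ _ (hRb.trans hQn.2)] at hx2
      obtain ⟨r, hr, q, hq, hrq⟩ := hx2
      have hq1 : q ∈ normalizer (R : Set G) := by
        have : q = r⁻¹ * x := by rw [← hrq]; simp
        rw [this]
        exact mul_mem (inv_mem (le_normalizer hr)) hx
      have hq2 : Q ⊓ stabilizer G a ≤ R := by
        apply le_Op _ ((Op_isPGroup p _).to_le inf_le_left)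
        rw [inf_comm (stabilizer G a)]
        exact hQn.inf_right _
      apply hxR
      rw [mem_subgroupOf, ← hrq]
      exact mul_mem hr (hq2 ⟨hq, h3 hq1⟩)
    rw [subgroupOf_eq_top] at h5
    exact le_sup_right.trans h5
  have h5 : R ≤ Op p (stabilizer G a) := le_Op h2 (Op_isPGroup p _)
  have h6 : Nat.card (Op p (stabilizer G a)) ≤ Nat.card Q := by
    obtain ⟨g, hg⟩ := exists_smul_eq G a b
    have h7 := Op_map_conj p (stabilizer G a) g
    rw [← stabilizer_smul_eq_stabilizer_map_conj, hg] at h7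
    rw [← card_map_of_injective (f := (MulAut.conj g).toMonoidHom) (MulAut.conj g).injective]
    exact card_le_of_le h7
  have h7 : Q = R := Subgroup.eq_of_le_of_card_ge h4 ((card_le_of_le h5).trans h6)
  exact hne (eq_bot_of_normalized_two hprim hab h2.1 h2.2 (h7 ▸ hQn.2))

end Cfsg.Agent.Perm2
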